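import Cfsg.Agent.H51.Ore.RuMain
import Cfsg.Agent.H916.RG.Pair
import Cfsg.Agent.OddHalf.Table.OutRu

/-!
# S3509, the row Ru (helper291)

The classes of `Ru` whose order is not a prime power (list of helper51) and, for each, a certificate that the pair of powers of
prime order covers no transitive action: products of conjugates under the centralizer of the other member.
-/

set_option autoImplicit false
set_option maxRecDepth 100000
set_option exponentiation.threshold 5000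

namespace Cfsg.Agent.H291.RG.Ru

open Cfsg Subgroup Cfsg.Agent.Lib Cfsg.Agent.Lib.BitNet Cfsg.Agent.SporadicB Cfsg.Agent.SporadicB.RuData
open Cfsg.Agent.SporadicB.RuOrder Cfsg.Agent.RuD.Data Cfsg.Agent.SporRec.TCUpperCert Cfsg.Agent.SporRec.R3.Kernel
open Cfsg.Agent.RuD.Letters Cfsg.Agent.H51.Ore.Ru Cfsg.Agent.H916.RG Cfsg.Agent.H106.RC

/-! ### pairs -/

section pairs

variable {A : Type*} [Group A] {N H : Subgroup A} {a b : A}

theorem PC.prod (h : PC N H a b) : ∀ l : List A, (∀ n ∈ l, n ∈ N ∧ n * a = a * n) →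
    PC N H a (l.map fun n => n * b * n⁻¹).prod
  | [], _ => fun s _ => Or.inr (by simp)
  | n :: l, hl => by
    rw [List.map_cons, List.prod_cons]
    exact (h.conj_right (hl n (by simp)).1 (hl n (by simp)).2).mul_right
      (PC.prod h l fun m hm => hl m (List.mem_cons_of_mem _ hm))

theorem dead_prod (hN : Nice N) (ha : a ≠ 1) (l : List A) (hl : ∀ n ∈ l, n ∈ N ∧ n * a = a * n) (k : ℕ)
    (h : (l.map fun n => n * b * n⁻¹).prod ^ k = a) : Dead N a b := by
  intro H hH hP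
  have h1 := (PC.prod hP l hl).pow_right k
  rw [h] at h1
  exact hN.absurd hH ha h1

theorem dead_step {y : A} (l : List A) (hl : ∀ n ∈ l, n ∈ N ∧ n * a = a * n) (k : ℕ)
    (h : (l.map fun n => n * b * n⁻¹).prod ^ k = y) (hD : Dead N a y) : Dead N a b := by
  intro H hH hP
  have h1 := (PC.prod hP l hl).pow_right k
  rw [h] at h1
  exact hD H hH h1

end pairs

/-! ### inverse words -/

/-- the letter of the inverse -/
def li (a : ℕ) : ℕ := [0, 6, 2, 7, 8, 5, 1, 3, 4].getD a a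

/-- the inverse word -/
def winv : List ℕ → List ℕ
  | [] => []
  | a :: w => winv w ++ [li a]

theorem lv_inv_aux : chkRel [[0, 0], [2, 2], [5, 5]] = true := by decide +kernel

theorem lv_li (a : ℕ) : (lv ml (li a) : RuOrder.H) = (lv ml a)⁻¹ := by
  have h := rel_of_chk lv_inv_aux
  have h0 := h [0, 0] (by simp)
  have h2 := h [2, 2] (by simp)
  have h5 := h [5, 5] (by simp)
  rw [wprod_cons, wprod_cons, wprod_nil, mul_one] at h0 h2 h5
  rcases lt_or_ge a 9 with h | h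
  · interval_cases a
    · exact eq_inv_of_mul_eq_one_left h0
    · rfl
    · exact eq_inv_of_mul_eq_one_left h2
    · rfl
    · rfl
    · exact eq_inv_of_mul_eq_one_left h5
    · exact (inv_inv _).symm
    · exact (inv_inv _).symm
    · exact (inv_inv _).symm
  · have e : li a = a := List.getD_eq_default _ _ h
    rw [e, lv_of_ge ml a h, inv_one]

theorem wprod_winv (w : List ℕ) : (wprod ml (winv w) : RuOrder.H) = (wprod ml w)⁻¹ := by
  induction w with
  | nil => exact inv_one.symm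
  | cons a w ih => rw [winv, wprod_append, ih, wprod_cons, wprod_cons, wprod_nil, mul_one, lv_li, mul_inv_rev]

/-- the product of the conjugates `c y c⁻¹` -/
def cw (y : List ℕ) : List (List ℕ) → List ℕ
  | [] => []
  | c :: l => c ++ (y ++ (winv c ++ cw y l))

theorem wprod_cw (y : List ℕ) (l : List (List ℕ)) : (wprod ml (cw y l) : RuOrder.H) =
    ((l.map (wprod ml)).map fun n => n * wprod ml y * n⁻¹).prod := by
  induction l with
  | nil => rfl
  | cons c l ih =>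
    rw [cw, wprod_append, wprod_append, wprod_append, wprod_winv, ih, List.map_cons, List.map_cons, List.prod_cons]
    simp only [mul_assoc]

/-- the relators of a stage: the words of `l` commute with `x`, the product of the conjugates of `y` to the power `k` is `u` -/
def stage (x y u : List ℕ) (l : List (List ℕ)) (k : ℕ) : List (List ℕ) :=
  (rpw (cw y l) k ++ winv u) :: l.map fun c => c ++ (x ++ (winv c ++ winv x))

theorem of_stage {x y u : List ℕ} {l : List (List ℕ)} {k : ℕ} (h : chkRel (stage x y u l k) = true) :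
    (∀ n ∈ l.map (wprod ml), n ∈ (⊤ : Subgroup RuOrder.H) ∧ n * wprod ml x = wprod ml x * n) ∧
    ((l.map (wprod ml)).map fun n => n * wprod ml y * n⁻¹).prod ^ k = wprod ml u := by
  have h1 := rel_of_chk h
  refine ⟨fun n hn => ⟨trivial, ?_⟩, ?_⟩
  · obtain ⟨c, hc, rfl⟩ := List.mem_map.1 hn
    have h2 := h1 (c ++ (x ++ (winv c ++ winv x))) (List.mem_cons_of_mem _ (List.mem_map.2 ⟨c, hc, rfl⟩))
    rw [wprod_append, wprod_append, wprod_append, wprod_winv, wprod_winv] at h2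
    calc wprod ml c * wprod ml x = (wprod ml c * (wprod ml x * ((wprod ml c)⁻¹ * (wprod ml x)⁻¹))) *
        (wprod ml x * wprod ml c) := by group
      _ = wprod ml x * wprod ml c := by rw [h2, one_mul]
  · have h2 := h1 (rpw (cw y l) k ++ winv u) List.mem_cons_self
    rw [wprod_append, wprod_winv, wprod_rpw, wprod_cw, mul_inv_eq_one] at h2
    exact h2

/-- the relators of the powers -/
def pws (w X Y : List ℕ) (m p q : ℕ) : List (List ℕ) :=
  [rpw w m, rpw w (m / p) ++ winv X, rpw w (m / q) ++ winv Y]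

/-- a word moves one of the base points -/
noncomputable def mv (w : List ℕ) : Bool := !(allL (fun b => Nat.beq (evalK w b) b) [0, 29, 580, 577])

theorem ne_of_mv {w : List ℕ} (h : mv w = true) : (wprod ml w : RuOrder.H) ≠ 1 := by
  intro h1
  have h2 : allL (fun b => Nat.beq (evalK w b) b) [0, 29, 580, 577] = true := by
    refine (allL_iff _ _).2 fun b hb => ?_
    have key : ∀ b : ℕ, b < 4060 → Nat.beq (evalK w b) b = true := by
      intro b hb
      have h3 := evalK_eq w ⟨b, hb⟩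
      rw [h1] at h3
      have h4 : evalK w b = b := h3.symm
      rw [h4, Nat.beq_refl]
    simp only [List.mem_cons, List.not_mem_nil, or_false] at hb
    rcases hb with rfl | rfl | rfl | rfl
    · exact key _ (by norm_num)
    · exact key _ (by norm_num)
    · exact key _ (by norm_num)
    · exact key _ (by norm_num)
  rw [mv, h2] at h
  exact absurd h (by decide)

/-! ### the two kinds of classes -/

theorem simple_H : IsSimpleGroup RuOrder.H := by
  have := Cfsg.Agent.RuLat.Main.main.2.2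
  exact Cfsg.Agent.RuLat.Main.equiv.symm.isSimpleGroup

theorem ncomm_H : ¬ IsMulCommutative RuOrder.H := by
  intro h
  have := simple_H
  have h1 : (Nat.card RuOrder.H).Prime := by
    let _ : CommGroup RuOrder.H := { (inferInstance : Group RuOrder.H) with mul_comm := h.is_comm.comm }
    exact IsSimpleGroup.prime_card
  rw [card_H] at h1
  norm_num at h1

/-- everything that is used about a class -/
def Ok (g : RuOrder.H) : Prop := RCe RuOrder.H (MulAut.conj g)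

theorem Ok.of_isConj {g h : RuOrder.H} (hg : Ok g) (e : IsConj g h) : Ok h := by
  obtain ⟨c, rfl⟩ := isConj_iff.1 e
  have h1 := rce_conj (s := c) hg
  rw [← map_inv, ← map_mul, ← map_mul] at h1
  exact h1

theorem ok_pp {g : RuOrder.H} {r k : ℕ} (hr : r.Prime) (h : g ^ r ^ k = 1) : Ok g := by
  obtain ⟨j, -, hj⟩ := (Nat.dvd_prime_pow hr).1 (orderOf_dvd_of_pow_eq_one h)
  refine rce_of_prime_pow simple_H _ hr (k := j) ?_
  rw [orderOf_injective _ (conj_injective simple_H ncomm_H), hj]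

theorem ok_word {w : List ℕ} (n : ℕ) {r k : ℕ} (hr : r.Prime) (hn : n = r ^ k) (h : chkRel [rpw w n] = true) :
    Ok (wprod ml w) := by
  refine ok_pp hr (k := k) ?_
  rw [← hn, ← wprod_rpw]
  exact rel_of_chk h _ (by simp)

theorem ok_dead {w X Y : List ℕ} {m p q : ℕ} (hp : p.Prime) (hq : q.Prime) (hpm : p ∣ m) (hqm : q ∣ m) (hm0 : 0 < m)
    (hpr : ∀ r : ℕ, r.Prime → r ∣ m → r = p ∨ r = q) (h : chkRel (pws w X Y m p q) = true) (hX : mv X = true)
    (hY : mv Y = true) (hD : Dead (⊤ : Subgroup RuOrder.H) (wprod ml X) (wprod ml Y)) : Ok (wprod ml w) := by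
  have h1 := rel_of_chk h
  have e1 : (wprod ml w : RuOrder.H) ^ m = 1 := by
    rw [← wprod_rpw]
    exact h1 _ (by simp [pws])
  have e2 : (wprod ml w : RuOrder.H) ^ (m / p) = wprod ml X := by
    have h2 := h1 (rpw w (m / p) ++ winv X) (by simp [pws])
    rw [wprod_append, wprod_winv, wprod_rpw, mul_inv_eq_one] at h2
    exact h2
  have e3 : (wprod ml w : RuOrder.H) ^ (m / q) = wprod ml Y := by
    have h2 := h1 (rpw w (m / q) ++ winv Y) (by simp [pws])
    rw [wprod_append, wprod_winv, wprod_rpw, mul_inv_eq_one] at h2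
    exact h2
  have ho : orderOf (wprod ml w : RuOrder.H) = m := by
    refine orderOf_eq_of_pow_and_pow_div_prime hm0 e1 fun r hr hrm => ?_
    rcases hpr r hr hrm with rfl | rfl
    · rw [e2]; exact ne_of_mv hX
    · rw [e3]; exact ne_of_mv hY
  refine rce_of_inner simple_H ncomm_H ho hm0.ne' hpm hqm hpr ?_
  rw [e2, e3]
  exact hD

theorem ok_A {w X Y : List ℕ} {m p q k : ℕ} (l : List (List ℕ)) (hp : p.Prime) (hq : q.Prime) (hpm : p ∣ m) (hqm : q ∣ m)
    (hm0 : 0 < m) (hpr : ∀ r : ℕ, r.Prime → r ∣ m → r = p ∨ r = q) (h : chkRel (pws w X Y m p q) = true)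
    (hX : mv X = true) (hY : mv Y = true) (hs : chkRel (stage X Y X l k) = true) : Ok (wprod ml w) := by
  obtain ⟨h1, h2⟩ := of_stage hs
  exact ok_dead hp hq hpm hqm hm0 hpr h hX hY (dead_prod (nice_top simple_H ncomm_H) (ne_of_mv hX) _ h1 k h2)

theorem ok_B {w X Y U : List ℕ} {m p q k j : ℕ} (l l' : List (List ℕ)) (hp : p.Prime) (hq : q.Prime) (hpm : p ∣ m)
    (hqm : q ∣ m) (hm0 : 0 < m) (hpr : ∀ r : ℕ, r.Prime → r ∣ m → r = p ∨ r = q)
    (h : chkRel (pws w X Y m p q) = true) (hX : mv X = true) (hY : mv Y = true) (hU : mv U = true)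
    (hs : chkRel (stage X Y U l k) = true) (hs' : chkRel (stage U X U l' j) = true) : Ok (wprod ml w) := by
  obtain ⟨h1, h2⟩ := of_stage hs
  obtain ⟨h3, h4⟩ := of_stage hs'
  exact ok_dead hp hq hpm hqm hm0 hpr h hX hY (dead_step _ h1 k h2
    (dead_prod (nice_top simple_H ncomm_H) (ne_of_mv hU) _ h3 j h4).symm)

theorem pr_of {m p q : ℕ} (a b : ℕ) (hp : p.Prime) (hq : q.Prime) (hm : m = p ^ a * q ^ b) :
    ∀ r : ℕ, r.Prime → r ∣ m → r = p ∨ r = q := by
  intro r hr hrm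
  rw [hm] at hrm
  rcases (Nat.Prime.dvd_mul hr).1 hrm with h | h
  · exact Or.inl ((Nat.prime_dvd_prime_iff_eq hr hp).1 (hr.dvd_of_dvd_pow h))
  · exact Or.inr ((Nat.prime_dvd_prime_iff_eq hr hq).1 (hr.dvd_of_dvd_pow h))

/-! ### the classes -/

def x_6a : List ℕ := [0, 5, 8, 6, 6, 7, 2, 3, 1, 1, 4, 5, 0]

def y_6a : List ℕ := [5, 0, 7, 0, 5, 3, 5, 0, 7, 0, 5, 3]

theorem ok_6a : Ok (wprod ml w_6a) :=
  ok_A (X := x_6a) (Y := y_6a) (m := 6) (p := 2) (q := 3) (k := 1)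
    [[5], [0, 2, 1, 3, 5, 7, 6, 3, 1, 3, 6, 0], [0, 7, 5, 0, 7, 1, 3, 5, 8, 6, 0]]
    (by norm_num) (by norm_num) (by norm_num) (by norm_num) (by norm_num)
    (pr_of 1 1 (by norm_num) (by norm_num) (by norm_num)) (by decide +kernel)
    (by decide +kernel) (by decide +kernel) (by decide +kernel)

def x_10a : List ℕ := [4, 0, 8]

def y_10a : List ℕ := [5, 2, 6, 2, 5, 1]

def u_10a : List ℕ := [6, 7, 6, 6, 7, 2, 3, 1, 1, 3, 1]

theorem ok_10a : Ok (wprod ml w_10a) :=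
  ok_B (X := x_10a) (Y := y_10a) (U := u_10a) (m := 10) (p := 2) (q := 5) (k := 1) (j := 3)
    [[1, 7], [2, 1, 7]]
    [[4, 6, 3, 6], [1, 3, 3, 5, 7, 5, 3, 3, 2, 6]]
    (by norm_num) (by norm_num) (by norm_num) (by norm_num) (by norm_num)
    (pr_of 1 1 (by norm_num) (by norm_num) (by norm_num)) (by decide +kernel)
    (by decide +kernel) (by decide +kernel) (by decide +kernel) (by decide +kernel) (by decide +kernel)

def x_10b : List ℕ := [0, 3, 6, 7, 4, 0, 5, 7, 1, 2, 6, 3, 5, 0, 8, 3, 1, 7, 0]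

def y_10b : List ℕ := [5, 2, 3, 3, 2, 5, 7, 7, 5, 2, 3, 3, 2, 5, 7, 7]

theorem ok_10b : Ok (wprod ml w_10b) :=
  ok_A (X := x_10b) (Y := y_10b) (m := 10) (p := 2) (q := 5) (k := 2)
    [[1, 2, 7, 4, 5, 3, 4, 0, 5, 7, 6], [6, 2, 1, 7, 6, 7, 1]]
    (by norm_num) (by norm_num) (by norm_num) (by norm_num) (by norm_num)
    (pr_of 1 1 (by norm_num) (by norm_num) (by norm_num)) (by decide +kernel)
    (by decide +kernel) (by decide +kernel) (by decide +kernel)

def x_12a : List ℕ := [4, 3, 5, 7, 5, 0, 4, 7, 5, 0, 1, 2, 6, 7, 1, 2, 6, 0, 3, 5, 3, 8, 0, 5, 3, 5, 7, 8]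

def y_12a : List ℕ := [0, 2, 7, 5, 4, 2, 0, 8, 5, 3, 0, 2, 7, 5, 4, 2, 0, 8, 5, 3, 0, 2, 7, 5, 4, 2, 0, 8, 5, 3,
  0, 2, 7, 5, 4, 2, 0, 8, 5, 3]

theorem ok_12a : Ok (wprod ml w_12a) :=
  ok_A (X := x_12a) (Y := y_12a) (m := 12) (p := 2) (q := 3) (k := 1)
    [[1, 7, 1, 7, 5, 0, 5, 8, 3, 1, 3, 0], [6, 3, 4, 5, 7, 1, 1, 3, 5, 3, 6, 0], []]
    (by norm_num) (by norm_num) (by norm_num) (by norm_num) (by norm_num)
    (pr_of 2 1 (by norm_num) (by norm_num) (by norm_num)) (by decide +kernel)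
    (by decide +kernel) (by decide +kernel) (by decide +kernel)

def x_12b : List ℕ := [3, 5, 7, 4, 5, 7, 5, 7, 7, 1, 2, 6, 3, 3, 5, 3, 5, 8, 3, 5, 7]

def y_12b : List ℕ := [0, 5, 7, 4, 5, 0, 8, 3, 0, 5, 7, 4, 5, 0, 8, 3, 0, 5, 7, 4, 5, 0, 8, 3, 0, 5, 7, 4, 5, 0,
  8, 3]

theorem ok_12b : Ok (wprod ml w_12b) :=
  ok_A (X := x_12b) (Y := y_12b) (m := 12) (p := 2) (q := 3) (k := 2)
    [[], [0, 6, 8, 7, 5, 3, 5, 7, 4, 2, 1, 0]]
    (by norm_num) (by norm_num) (by norm_num) (by norm_num) (by norm_num)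
    (pr_of 2 1 (by norm_num) (by norm_num) (by norm_num)) (by decide +kernel)
    (by decide +kernel) (by decide +kernel) (by decide +kernel)

def x_14a : List ℕ := [3, 5, 3, 1, 8, 0, 5, 7, 5, 8, 0, 4, 5, 3, 5, 0, 4, 6, 7, 5, 7]

def y_14a : List ℕ := [5, 2, 3, 1, 2, 5, 6, 7, 5, 2, 3, 1, 2, 5, 6, 7]

def u_14a : List ℕ := [4, 0, 7, 6, 3, 5, 7, 2, 3, 5, 7, 1, 3, 0, 8]

theorem ok_14a : Ok (wprod ml w_14a) :=
  ok_B (X := x_14a) (Y := y_14a) (U := u_14a) (m := 14) (p := 2) (q := 7) (k := 1) (j := 1)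
    [[], [0, 7, 1, 2, 1, 8, 5, 7, 2, 0]]
    [[2, 7, 5, 0, 6, 2, 3, 1, 5, 3, 2], [2, 4, 3, 5, 7, 1, 2, 1, 5, 3, 6]]
    (by norm_num) (by norm_num) (by norm_num) (by norm_num) (by norm_num)
    (pr_of 1 1 (by norm_num) (by norm_num) (by norm_num)) (by decide +kernel)
    (by decide +kernel) (by decide +kernel) (by decide +kernel) (by decide +kernel) (by decide +kernel)

def x_14b : List ℕ := [4, 0, 8]

def y_14b : List ℕ := [2, 0, 7, 0, 2, 3]

def u_14b : List ℕ := [7, 2, 1, 2, 6, 2, 3]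

theorem ok_14b : Ok (wprod ml w_14b) :=
  ok_B (X := x_14b) (Y := y_14b) (U := u_14b) (m := 14) (p := 2) (q := 7) (k := 1) (j := 2)
    [[], [1, 1, 2]]
    [[6, 7, 5, 4, 3], [0, 7, 5, 4, 3]]
    (by norm_num) (by norm_num) (by norm_num) (by norm_num) (by norm_num)
    (pr_of 1 1 (by norm_num) (by norm_num) (by norm_num)) (by decide +kernel)
    (by decide +kernel) (by decide +kernel) (by decide +kernel) (by decide +kernel) (by decide +kernel)

def x_14c : List ℕ := [4, 0, 8]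

def y_14c : List ℕ := [4, 2, 0, 7, 0, 2, 3, 8]

def u_14c : List ℕ := [7, 7, 2, 1, 2, 6, 2, 3, 3]

theorem ok_14c : Ok (wprod ml w_14c) :=
  ok_B (X := x_14c) (Y := y_14c) (U := u_14c) (m := 14) (p := 2) (q := 7) (k := 1) (j := 1)
    [[], [1, 1, 2]]
    [[], [5, 3, 6, 6, 7, 5]]
    (by norm_num) (by norm_num) (by norm_num) (by norm_num) (by norm_num)
    (pr_of 1 1 (by norm_num) (by norm_num) (by norm_num)) (by decide +kernel)
    (by decide +kernel) (by decide +kernel) (by decide +kernel) (by decide +kernel) (by decide +kernel)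

def x_15a : List ℕ := [0, 7, 8, 5, 4, 3, 0, 5, 0, 7, 8, 5, 4, 3, 0, 5, 0, 7, 8, 5, 4, 3, 0, 5, 0, 7, 8, 5, 4, 3,
  0, 5, 0, 7, 8, 5, 4, 3, 0, 5]

def y_15a : List ℕ := [0, 7, 8, 5, 4, 3, 0, 5, 0, 7, 8, 5, 4, 3, 0, 5, 0, 7, 8, 5, 4, 3, 0, 5]

theorem ok_15a : Ok (wprod ml w_15a) :=
  ok_A (X := x_15a) (Y := y_15a) (m := 15) (p := 3) (q := 5) (k := 2)
    [[], [0, 5, 4, 7, 6, 2, 1, 3, 8, 5, 0]]
    (by norm_num) (by norm_num) (by norm_num) (by norm_num) (by norm_num)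
    (pr_of 1 1 (by norm_num) (by norm_num) (by norm_num)) (by decide +kernel)
    (by decide +kernel) (by decide +kernel) (by decide +kernel)

def x_20a : List ℕ := [0, 3, 1, 8, 7, 5, 6, 7, 1, 7, 2, 3, 6, 3, 1, 5, 3, 4, 6, 7, 0]

def y_20a : List ℕ := [5, 3, 5, 7, 7, 6, 3, 5, 7, 5, 1, 3, 5, 3, 5, 7, 7, 6, 3, 5, 7, 5, 1, 3, 5, 3, 5, 7, 7, 6,
  3, 5, 7, 5, 1, 3, 5, 3, 5, 7, 7, 6, 3, 5, 7, 5, 1, 3]

theorem ok_20a : Ok (wprod ml w_20a) :=
  ok_A (X := x_20a) (Y := y_20a) (m := 20) (p := 2) (q := 5) (k := 2)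
    [[], [1, 5, 3, 6, 3, 2, 1, 7, 5, 6]]
    (by norm_num) (by norm_num) (by norm_num) (by norm_num) (by norm_num)
    (pr_of 2 1 (by norm_num) (by norm_num) (by norm_num)) (by decide +kernel)
    (by decide +kernel) (by decide +kernel) (by decide +kernel)

def x_20b : List ℕ := [2, 6, 3, 4, 1, 3, 5, 3, 2, 7, 5, 7, 6, 8, 7, 1, 2]

def y_20b : List ℕ := [5, 7, 5, 3, 6, 7, 7, 5, 3, 5, 3, 1, 5, 7, 5, 3, 6, 7, 7, 5, 3, 5, 3, 1, 5, 7, 5, 3, 6, 7,
  7, 5, 3, 5, 3, 1, 5, 7, 5, 3, 6, 7, 7, 5, 3, 5, 3, 1]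

theorem ok_20b : Ok (wprod ml w_20b) :=
  ok_A (X := x_20b) (Y := y_20b) (m := 20) (p := 2) (q := 5) (k := 1)
    [[3, 5, 0, 3, 1, 1, 7, 5, 7], [1, 5, 4, 7, 5, 7, 6, 3, 5, 8, 3], [0, 2, 1, 2, 5, 7, 5, 7, 1, 7, 2]]
    (by norm_num) (by norm_num) (by norm_num) (by norm_num) (by norm_num)
    (pr_of 2 1 (by norm_num) (by norm_num) (by norm_num)) (by decide +kernel)
    (by decide +kernel) (by decide +kernel) (by decide +kernel)

def x_20c : List ℕ := [0, 4, 5, 6, 3, 1, 3, 2, 7, 6, 7, 1, 5, 8, 0]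

def y_20c : List ℕ := [0, 2, 5, 7, 1, 4, 1, 3, 0, 8, 0, 2, 8, 5, 2, 0, 5, 4, 4, 0, 7, 6, 8, 6, 3, 5, 2, 0]

theorem ok_20c : Ok (wprod ml w_20c) :=
  ok_A (X := x_20c) (Y := y_20c) (m := 20) (p := 2) (q := 5) (k := 1)
    [[0, 5, 7, 4, 6, 7, 5, 8, 2, 0], [0, 5, 4, 7, 1, 5, 2, 6, 6, 0], [0, 2, 5, 7, 6, 3, 5, 6, 6, 0]]
    (by norm_num) (by norm_num) (by norm_num) (by norm_num) (by norm_num)
    (pr_of 2 1 (by norm_num) (by norm_num) (by norm_num)) (by decide +kernel)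
    (by decide +kernel) (by decide +kernel) (by decide +kernel)

def x_24a : List ℕ := [7, 1, 3, 5, 3, 5, 7, 7, 1, 7, 2, 3, 6, 3, 3, 5, 7, 5, 7, 6, 3]

def y_24a : List ℕ := [5, 0, 4, 7, 7, 0, 5, 3, 3, 8, 5, 0, 4, 7, 7, 0, 5, 3, 3, 8, 5, 0, 4, 7, 7, 0, 5, 3, 3, 8,
  5, 0, 4, 7, 7, 0, 5, 3, 3, 8, 5, 0, 4, 7, 7, 0, 5, 3, 3, 8, 5, 0, 4, 7, 7, 0, 5, 3, 3, 8, 5, 0, 4, 7, 7, 0, 5,
  3, 3, 8, 5, 0, 4, 7, 7, 0, 5, 3, 3, 8]

theorem ok_24a : Ok (wprod ml w_24a) :=
  ok_A (X := x_24a) (Y := y_24a) (m := 24) (p := 2) (q := 3) (k := 2)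
    [[], [7, 4, 6, 7, 5, 0, 3, 5, 3, 5, 7, 7]]
    (by norm_num) (by norm_num) (by norm_num) (by norm_num) (by norm_num)
    (pr_of 3 1 (by norm_num) (by norm_num) (by norm_num)) (by decide +kernel)
    (by decide +kernel) (by decide +kernel) (by decide +kernel)

def x_24b : List ℕ := [2, 1, 2, 6, 2]

def y_24b : List ℕ := [1, 8, 0, 7, 1, 3, 5, 7, 1, 3, 5, 2, 0, 2, 5, 0, 7, 6, 3, 5, 7, 6, 3, 0, 4, 6]

theorem ok_24b : Ok (wprod ml w_24b) :=
  ok_A (X := x_24b) (Y := y_24b) (m := 24) (p := 2) (q := 3) (k := 1)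
    [[1], [1, 4, 7, 6, 3], [8, 3, 6, 7]]
    (by norm_num) (by norm_num) (by norm_num) (by norm_num) (by norm_num)
    (pr_of 3 1 (by norm_num) (by norm_num) (by norm_num)) (by decide +kernel)
    (by decide +kernel) (by decide +kernel) (by decide +kernel)

def x_26a : List ℕ := [0, 5, 7, 5, 7, 7, 1, 7, 5, 7, 5, 3, 5, 3, 6, 3, 3, 5, 3, 5, 0]

def y_26a : List ℕ := [2, 0, 7, 1, 5, 0, 2, 5, 6, 3, 2, 0, 7, 1, 5, 0, 2, 5, 6, 3]

def u_26a : List ℕ := [4, 5, 7, 8, 0, 5, 3, 1, 3, 6, 0, 1, 2, 6, 7, 1, 2, 6, 0, 3, 1, 7, 6, 7, 5, 0, 4, 3, 5, 8]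

theorem ok_26a : Ok (wprod ml w_26a) :=
  ok_B (X := x_26a) (Y := y_26a) (U := u_26a) (m := 26) (p := 2) (q := 13) (k := 1) (j := 1)
    [[], [3, 6, 3, 1, 5, 3, 5, 2, 6, 7, 1, 7]]
    [[], [1, 1, 4, 5, 3, 5, 8, 2, 6, 6]]
    (by norm_num) (by norm_num) (by norm_num) (by norm_num) (by norm_num)
    (pr_of 1 1 (by norm_num) (by norm_num) (by norm_num)) (by decide +kernel)
    (by decide +kernel) (by decide +kernel) (by decide +kernel) (by decide +kernel) (by decide +kernel)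

def x_26b : List ℕ := [1, 3, 1, 4, 5, 7, 1, 5, 7, 5, 0, 5, 3, 5, 6, 3, 5, 8, 6, 7, 6]

def y_26b : List ℕ := [5, 2, 0, 6, 3, 2, 5, 7, 1, 0, 5, 2, 0, 6, 3, 2, 5, 7, 1, 0]

def u_26b : List ℕ := [1, 5, 7, 1, 5, 3, 3, 5, 7, 6, 0, 1, 2, 6, 7, 1, 2, 6, 0, 3, 1, 3, 5, 7, 7, 5, 6, 3, 5, 6]

theorem ok_26b : Ok (wprod ml w_26b) :=
  ok_B (X := x_26b) (Y := y_26b) (U := u_26b) (m := 26) (p := 2) (q := 13) (k := 1) (j := 1)
    [[0, 7, 1, 5, 3, 5, 7, 5, 6, 3, 0], [0, 7, 1, 3, 5, 0, 3, 8, 6, 7, 0]]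
    [[5, 4, 3, 1, 3, 6, 2, 6, 7, 5, 7, 7], [6, 3, 6, 7, 5, 6, 7, 1, 0, 5]]
    (by norm_num) (by norm_num) (by norm_num) (by norm_num) (by norm_num)
    (pr_of 1 1 (by norm_num) (by norm_num) (by norm_num)) (by decide +kernel)
    (by decide +kernel) (by decide +kernel) (by decide +kernel) (by decide +kernel) (by decide +kernel)

def x_26c : List ℕ := [4, 0, 8]

def y_26c : List ℕ := [3, 4, 1, 2, 0, 3, 1, 0, 2, 6, 7, 6, 8, 7]

def u_26c : List ℕ := [7, 8, 6, 6, 3, 2, 7, 1, 1, 4, 3]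

theorem ok_26c : Ok (wprod ml w_26c) :=
  ok_B (X := x_26c) (Y := y_26c) (U := u_26c) (m := 26) (p := 2) (q := 13) (k := 1) (j := 3)
    [[], [1, 3, 3, 6]]
    [[], [2, 1, 5, 0, 7, 5, 7, 5, 6, 7], [3, 3, 8, 7, 6, 6], [2, 1, 5, 0, 7, 5, 7, 5, 6, 7]]
    (by norm_num) (by norm_num) (by norm_num) (by norm_num) (by norm_num)
    (pr_of 1 1 (by norm_num) (by norm_num) (by norm_num)) (by decide +kernel)
    (by decide +kernel) (by decide +kernel) (by decide +kernel) (by decide +kernel) (by decide +kernel)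

theorem cls_rc : ∀ r ∈ cls, Ok (wprod ml r.w) := by
  intro r hr
  simp only [cls, List.mem_cons, List.not_mem_nil, or_false] at hr
  rcases hr with rfl | rfl | rfl | rfl | rfl | rfl | rfl | rfl | rfl | rfl | rfl | rfl | rfl | rfl | rfl | rfl | rfl | rfl | rfl | rfl | rfl | rfl | rfl | rfl | rfl | rfl | rfl | rfl | rfl | rfl | rfl | rfl | rfl | rfl | rfl
  · exact ok_word 1 (r := 2) (k := 0) (by norm_num) (by norm_num) (by decide +kernel)
  · exact ok_word 2 (r := 2) (k := 1) (by norm_num) (by norm_num) (by decide +kernel)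
  · exact ok_word 2 (r := 2) (k := 1) (by norm_num) (by norm_num) (by decide +kernel)
  · exact ok_word 3 (r := 3) (k := 1) (by norm_num) (by norm_num) (by decide +kernel)
  · exact ok_word 4 (r := 2) (k := 2) (by norm_num) (by norm_num) (by decide +kernel)
  · exact ok_word 4 (r := 2) (k := 2) (by norm_num) (by norm_num) (by decide +kernel)
  · exact ok_word 4 (r := 2) (k := 2) (by norm_num) (by norm_num) (by decide +kernel)
  · exact ok_word 4 (r := 2) (k := 2) (by norm_num) (by norm_num) (by decide +kernel)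
  · exact ok_word 5 (r := 5) (k := 1) (by norm_num) (by norm_num) (by decide +kernel)
  · exact ok_word 5 (r := 5) (k := 1) (by norm_num) (by norm_num) (by decide +kernel)
  · exact ok_6a
  · exact ok_word 7 (r := 7) (k := 1) (by norm_num) (by norm_num) (by decide +kernel)
  · exact ok_word 8 (r := 2) (k := 3) (by norm_num) (by norm_num) (by decide +kernel)
  · exact ok_word 8 (r := 2) (k := 3) (by norm_num) (by norm_num) (by decide +kernel)
  · exact ok_word 8 (r := 2) (k := 3) (by norm_num) (by norm_num) (by decide +kernel)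
  · exact ok_10a
  · exact ok_10b
  · exact ok_12a
  · exact ok_12b
  · exact ok_word 13 (r := 13) (k := 1) (by norm_num) (by norm_num) (by decide +kernel)
  · exact ok_14a
  · exact ok_14b
  · exact ok_14c
  · exact ok_15a
  · exact ok_word 16 (r := 2) (k := 4) (by norm_num) (by norm_num) (by decide +kernel)
  · exact ok_20a
  · exact ok_20b
  · exact ok_20c
  · exact ok_24a
  · exact ok_24b
  · exact ok_26a
  · exact ok_26b
  · exact ok_26c
  · exact ok_word 29 (r := 29) (k := 1) (by norm_num) (by norm_num) (by decide +kernel)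
  · exact ok_word 29 (r := 29) (k := 1) (by norm_num) (by norm_num) (by decide +kernel)

theorem ok_all (g : RuOrder.H) : Ok g := by
  rcases cover g with ⟨r, hr, h⟩ | h
  · exact (cls_rc r hr).of_isConj h
  · refine Ok.of_isConj ?_ h
    refine ok_pp (r := 2) (k := 4) (by norm_num) ?_
    have h1 : (wprod ml w_16a : RuOrder.H) ^ 16 = 1 := by
      rw [← wprod_rpw]
      exact rel_of_chk (rels := [rpw w_16a 16]) (by decide +kernel) _ (List.mem_singleton_self _)
    rw [inv_pow, show 2 ^ 4 = 16 by norm_num, h1, inv_one]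

theorem rc_H : RC RuOrder.H := by
  intro α
  obtain ⟨g, rfl⟩ := Cfsg.Agent.OddHalf.Table.OutRu.inner α
  exact ok_all g

/-- **S3509, the row Ru** -/
theorem rc_ru {S : Type*} [Group S] (h : Spor.IsoRu S) : RC S := by
  obtain ⟨e⟩ := h
  exact RC.congr (e.trans Cfsg.Agent.RuLat.Main.equiv).symm rc_H

end Cfsg.Agent.H291.RG.Ru
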